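import Cfsg.Agent.H976.Cop.Bridge
import Cfsg.Agent.S2580
import Cfsg.Agent.S2587

/-!
# Rows `A_n`, `PSL_n(q)`, `PSU_n(q)`
-/

set_option autoImplicit false

namespace Cfsg.Agent.H976.Cop

theorem amb_alt (n : ℕ) : Amb (alternatingGroup (Fin n)) := by
  intro x
  have h1 : IsConj (x : Equiv.Perm (Fin n)) (x : Equiv.Perm (Fin n))⁻¹ := by
    rw [Equiv.Perm.isConj_iff_cycleType_eq, Equiv.Perm.cycleType_inv]
  obtain ⟨c, hc⟩ := isConj_iff.1 h1
  refine ⟨MulAut.conjNormal c, ?_⟩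
  apply Subtype.ext
  rw [MulAut.conjNormal_apply, hc]
  rfl

theorem row_alternating {S : Type*} [Group S] [Finite S] (h : Cfsg.IsAlternating S) :
    Cfsg.Agent.H505.Cop.CopRow S := by
  obtain ⟨n, -, ⟨e⟩⟩ := h
  exact ((amb_alt n).congr e.symm).cop

section PSL

variable {F : Type*} [Field F] {n : ℕ}

open Matrix

/-- conjugation of `SL_n` by a unit matrix -/
def slConj (P : (Matrix (Fin n) (Fin n) F)ˣ) : MulAut (SpecialLinearGroup (Fin n) F) where
  toFun g := ⟨(P : Matrix (Fin n) (Fin n) F) * g * ((P⁻¹ : (Matrix (Fin n) (Fin n) F)ˣ) : Matrix (Fin n) (Fin n) F), by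
    rw [Matrix.det_units_conj]; exact g.2⟩
  invFun g := ⟨((P⁻¹ : (Matrix (Fin n) (Fin n) F)ˣ) : Matrix (Fin n) (Fin n) F) * g * (P : Matrix (Fin n) (Fin n) F), by
    rw [Matrix.det_units_conj']; exact g.2⟩
  left_inv g := by
    apply Subtype.ext
    simp [Matrix.mul_assoc]
  right_inv g := by
    apply Subtype.ext
    simp [Matrix.mul_assoc]
  map_mul' g h := by
    apply Subtype.ext
    show (P : Matrix (Fin n) (Fin n) F) * ((g : Matrix (Fin n) (Fin n) F) * (h : Matrix (Fin n) (Fin n) F)) *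
        ((P⁻¹ : (Matrix (Fin n) (Fin n) F)ˣ) : Matrix (Fin n) (Fin n) F) =
      ((P : Matrix (Fin n) (Fin n) F) * (g : Matrix (Fin n) (Fin n) F) *
        ((P⁻¹ : (Matrix (Fin n) (Fin n) F)ˣ) : Matrix (Fin n) (Fin n) F)) *
      ((P : Matrix (Fin n) (Fin n) F) * (h : Matrix (Fin n) (Fin n) F) *
        ((P⁻¹ : (Matrix (Fin n) (Fin n) F)ˣ) : Matrix (Fin n) (Fin n) F))
    simp [Matrix.mul_assoc]

theorem slConj_coe (P : (Matrix (Fin n) (Fin n) F)ˣ) (g : SpecialLinearGroup (Fin n) F) :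
    ((slConj P g : SpecialLinearGroup (Fin n) F) : Matrix (Fin n) (Fin n) F)
      = (P : Matrix (Fin n) (Fin n) F) * g * ((P⁻¹ : (Matrix (Fin n) (Fin n) F)ˣ) : Matrix (Fin n) (Fin n) F) := rfl

/-- inverse transpose on `SL_n` -/
def slDual : MulAut (SpecialLinearGroup (Fin n) F) where
  toFun g := (g⁻¹).transpose
  invFun g := (g⁻¹).transpose
  left_inv g := by
    apply Subtype.ext
    show (Matrix.adjugate (Matrix.adjugate (g : Matrix (Fin n) (Fin n) F))ᵀ)ᵀ = _
    rw [Matrix.adjugate_transpose, Matrix.transpose_transpose]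
    exact congrArg Subtype.val (inv_inv g)
  right_inv g := by
    apply Subtype.ext
    show (Matrix.adjugate (Matrix.adjugate (g : Matrix (Fin n) (Fin n) F))ᵀ)ᵀ = _
    rw [Matrix.adjugate_transpose, Matrix.transpose_transpose]
    exact congrArg Subtype.val (inv_inv g)
  map_mul' g h := by
    apply Subtype.ext
    show (Matrix.adjugate ((g : Matrix (Fin n) (Fin n) F) * (h : Matrix (Fin n) (Fin n) F)))ᵀ = (Matrix.adjugate (g : Matrix (Fin n) (Fin n) F))ᵀ * (Matrix.adjugate (h : Matrix (Fin n) (Fin n) F))ᵀ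
    rw [Matrix.adjugate_mul_distrib, Matrix.transpose_mul]

theorem amb_sl [Finite F] : Amb (SpecialLinearGroup (Fin n) F) := by
  intro x
  obtain ⟨c, hc⟩ := Cfsg.Agent.S2580.result (((x⁻¹ : SpecialLinearGroup (Fin n) F) : Matrix (Fin n) (Fin n) F))
  have h1 : (c : Matrix (Fin n) (Fin n) F) * ((x⁻¹ : SpecialLinearGroup (Fin n) F) : Matrix (Fin n) (Fin n) F)
      = (((x⁻¹ : SpecialLinearGroup (Fin n) F) : Matrix (Fin n) (Fin n) F))ᵀ * (c : Matrix (Fin n) (Fin n) F) := hc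
  refine ⟨slConj c⁻¹ * slDual, ?_⟩
  apply Subtype.ext
  rw [MulAut.mul_apply, slConj_coe, inv_inv]
  have h2 : ((slDual x : SpecialLinearGroup (Fin n) F) : Matrix (Fin n) (Fin n) F)
      = (((x⁻¹ : SpecialLinearGroup (Fin n) F) : Matrix (Fin n) (Fin n) F))ᵀ := rfl
  rw [h2, mul_assoc, ← h1, ← mul_assoc, ← Units.val_mul, inv_mul_cancel, Units.val_one, one_mul]

theorem row_psl {S : Type*} [Group S] [Finite S] (h : Cfsg.IsPSL S) : Cfsg.Agent.H505.Cop.CopRow S := by
  obtain ⟨F, _, _, n, -, -, ⟨e⟩⟩ := h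
  have h1 : Amb (Matrix.ProjectiveSpecialLinearGroup (Fin n) F) :=
    (amb_sl (F := F) (n := n)).quot (Subgroup.center (SpecialLinearGroup (Fin n) F))
  exact (h1.congr e.symm).cop

end PSL

/-- restriction of an automorphism to an invariant subgroup -/
noncomputable def restrictAut {G : Type*} [Group G] (K : Subgroup G) [Finite K] (α : MulAut G) (h : ∀ x ∈ K, α x ∈ K) :
    MulAut K :=
  MulEquiv.ofBijective ((α.toMonoidHom.comp K.subtype).codRestrict K fun x => h x x.2) (by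
    rw [← Finite.injective_iff_bijective]
    intro a b hab
    apply Subtype.ext
    apply α.injective
    exact congrArg Subtype.val hab)

theorem restrictAut_coe {G : Type*} [Group G] (K : Subgroup G) [Finite K] (α : MulAut G) (h : ∀ x ∈ K, α x ∈ K)
    (x : K) : ((restrictAut K α h x : K) : G) = α x := rfl

section PSU

open Matrix Cfsg.Agent.H186 Cfsg.Agent.ClassicalGeometry.GUBasic

variable {K : Type*} [Field K] [Fintype K] {q n : ℕ}

theorem mem_SU_iff_st (hK : Fintype.card K = q ^ 2) (g : SpecialLinearGroup (Fin n) K) :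
    g ∈ Cfsg.SU n K q ↔ st q (g : Matrix (Fin n) (Fin n) K) * (g : Matrix (Fin n) (Fin n) K) = 1 := by
  have h1 := mem_GU_iff_st hK (SpecialLinearGroup.toGL g)
  rw [mem_GU_iff] at h1
  exact h1

theorem amb_su (hK : Fintype.card K = q ^ 2) : Amb (Cfsg.SU n K q) := by
  intro x
  obtain ⟨σ, hσ⟩ := exists_powHom hK
  have hσσ : ∀ y : K, σ (σ y) = y := fun y => by rw [hσ, hσ, pow_pow_q hK]
  have hx := (mem_SU_iff_st hK _).1 x.2
  -- the Frobenius image of `x`
  let φ : MulAut (SpecialLinearGroup (Fin n) K) :=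
    { (SpecialLinearGroup.map σ : SpecialLinearGroup (Fin n) K →* SpecialLinearGroup (Fin n) K) with
      invFun := SpecialLinearGroup.map σ
      left_inv := by
        intro g
        apply Subtype.ext
        ext i j
        exact hσσ _
      right_inv := by
        intro g
        apply Subtype.ext
        ext i j
        exact hσσ _ }
  have hφ : ∀ g : SpecialLinearGroup (Fin n) K, ((φ g : SpecialLinearGroup (Fin n) K) : Matrix (Fin n) (Fin n) K)
      = (st q (g : Matrix (Fin n) (Fin n) K))ᵀ := by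
    intro g
    ext i j
    exact hσ _
  have hst : ∀ M : Matrix (Fin n) (Fin n) K, st q Mᵀ = (st q M)ᵀ := fun M => by
    ext i j; rfl
  have hφU : ∀ g ∈ Cfsg.SU n K q, φ g ∈ Cfsg.SU n K q := by
    intro g hg
    rw [mem_SU_iff_st hK] at hg ⊢
    rw [hφ, hst, st_st hK, ← Matrix.transpose_mul, hg, Matrix.transpose_one]
  have hφx := (mem_SU_iff_st hK _).1 (hφU _ x.2)
  -- conjugacy
  have hx1 : ((x⁻¹ : Cfsg.SU n K q) : SpecialLinearGroup (Fin n) K).1 = st q (x : SpecialLinearGroup (Fin n) K).1 := by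
    have h2 : ((x : SpecialLinearGroup (Fin n) K)⁻¹).1 * (x : SpecialLinearGroup (Fin n) K).1 = 1 :=
      congrArg Subtype.val (inv_mul_cancel (x : SpecialLinearGroup (Fin n) K))
    have h3 : (x : SpecialLinearGroup (Fin n) K).1 * ((x : SpecialLinearGroup (Fin n) K)⁻¹).1 = 1 :=
      congrArg Subtype.val (mul_inv_cancel (x : SpecialLinearGroup (Fin n) K))
    calc ((x : SpecialLinearGroup (Fin n) K)⁻¹).1
        = (st q (x : SpecialLinearGroup (Fin n) K).1 * (x : SpecialLinearGroup (Fin n) K).1) *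
            ((x : SpecialLinearGroup (Fin n) K)⁻¹).1 := by rw [hx, one_mul]
      _ = st q (x : SpecialLinearGroup (Fin n) K).1 := by rw [mul_assoc, h3, mul_one]
  obtain ⟨c, hc⟩ := Cfsg.Agent.S2580.result ((φ x : SpecialLinearGroup (Fin n) K).1)
  have hc1 : (c : Matrix (Fin n) (Fin n) K) * (φ x : SpecialLinearGroup (Fin n) K).1 =
      ((x⁻¹ : Cfsg.SU n K q) : SpecialLinearGroup (Fin n) K).1 * (c : Matrix (Fin n) (Fin n) K) := by
    rw [hx1]
    have h4 : (c : Matrix (Fin n) (Fin n) K) * (φ x : SpecialLinearGroup (Fin n) K).1 =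
      ((φ x : SpecialLinearGroup (Fin n) K).1)ᵀ * (c : Matrix (Fin n) (Fin n) K) := hc
    rw [h4, hφ, Matrix.transpose_transpose]
  obtain ⟨y, hy, hyc⟩ := exists_conj hK _ _ _ hφx ((mem_SU_iff_st hK _).1 (x⁻¹).2) c.isUnit hc1
  let Y : (Matrix (Fin n) (Fin n) K)ˣ := ⟨y, st q y, mul_eq_one_comm.1 hy, hy⟩
  have hYU : ∀ g ∈ Cfsg.SU n K q, slConj Y g ∈ Cfsg.SU n K q := by
    intro g hg
    rw [mem_SU_iff_st hK] at hg ⊢
    have h5 : (slConj Y g).1 = y * g.1 * st q y := rfl
    rw [h5, st_mul hK, st_mul hK, st_st hK]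
    calc y * (st q g.1 * st q y) * (y * g.1 * st q y) = y * (st q g.1 * (st q y * y) * g.1) * st q y := by
          simp only [Matrix.mul_assoc]
      _ = 1 := by rw [hy, mul_one, hg, mul_one]; exact mul_eq_one_comm.1 hy
  refine ⟨restrictAut (Cfsg.SU n K q) (slConj Y * φ) (fun g hg => hYU _ (hφU _ hg)), ?_⟩
  apply Subtype.ext
  apply Subtype.ext
  show y * (φ x : SpecialLinearGroup (Fin n) K).1 * st q y = _
  rw [hyc, Matrix.mul_assoc, mul_eq_one_comm.1 hy, mul_one]

theorem row_psu {S : Type*} [Group S] [Finite S] (h : Cfsg.IsPSU S) : Cfsg.Agent.H505.Cop.CopRow S := by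
  obtain ⟨F, _, _, n, q, hK, -, -, ⟨e⟩⟩ := h
  have h1 : Amb (Cfsg.PSU n F q) := (amb_su (n := n) hK).quot (Subgroup.center (Cfsg.SU n F q))
  exact (h1.congr e.symm).cop

end PSU

end Cfsg.Agent.H976.Cop
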